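import Mathlib
import Cfsg.Agent.Lib.Helper70.S3701.Defs
import Cfsg.Agent.Lib.Helper48.Generation

/-!
# S3701, package `PkgEnd`

Three normal subgroups `L1 ∋ w`, `L2 ∋ w'`, `L3 ∋ w w'` avoiding `a`, `b`, `c` respectively:
`L1 ⊓ L2 ⊓ L3 = 1` by coprime generation, so `L3` centralizes `c ∈ L1 ⊓ L2`, hence `L3 ≤ H`,
and every conjugate of `a` lies in `L3 ≤ H`: `G = H` by `TI`.
-/

set_option autoImplicit false

namespace Cfsg.Agent.Lib.Helper66.S3701

open Cfsg.Agent.Lib.Helper70.S3701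

universe u

/-- An element of order dividing 3 inverted by an element of a normal subgroup lies in it. -/
theorem mem_of_inverts {G : Type u} [Group G] (L : Subgroup G) (hL : L.Normal) {v x : G}
    (hv : v ∈ L) (hx3 : x ^ 3 = 1) (hinv : v * x * v⁻¹ = x⁻¹) : x ∈ L := by
  have h1 : v * (x * v⁻¹ * x⁻¹) ∈ L := L.mul_mem hv (hL.conj_mem _ (L.inv_mem hv) x)
  have e : v * (x * v⁻¹ * x⁻¹) = x := by
    have e1 : v * (x * v⁻¹ * x⁻¹) = (v * x * v⁻¹) * x⁻¹ := by group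
    rw [e1, hinv]
    have h3 : x * x * x = 1 := by rw [← hx3, pow_succ, pow_succ, pow_one]
    calc x⁻¹ * x⁻¹ = x⁻¹ * x⁻¹ * (x * x * x) := by rw [h3, mul_one]
      _ = x := by group
  rwa [e] at h1

/-- `x = x⁻¹`, `x ^ 3 = 1` force `x = 1`. -/
theorem eq_one_of_inv_eq {G : Type u} [Group G] {x : G} (hx3 : x ^ 3 = 1) (h : x⁻¹ = x) :
    x = 1 := by
  have h2 : x * x = 1 := by
    calc x * x = x⁻¹ * x := by rw [h]
      _ = 1 := inv_mul_cancel x
  have h3 : x * x * x = 1 := by rw [← hx3, pow_succ, pow_succ, pow_one]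
  rw [h2, one_mul] at h3
  exact h3

/-- If `x ^ 3 = 1`, `x ∉ L` and `x ^ i ∈ L` then `x ^ i = 1`. -/
theorem pow_eq_one_of_mem {G : Type u} [Group G] (L : Subgroup G) {x : G} (hx3 : x ^ 3 = 1)
    (hxL : x ∉ L) (i : ℕ) (hi : x ^ i ∈ L) : x ^ i = 1 := by
  rw [pow_eq_pow_mod i hx3] at hi ⊢
  have hlt : i % 3 < 3 := Nat.mod_lt _ (by norm_num)
  interval_cases h : i % 3
  · simp
  · rw [pow_one] at hi
    exact absurd hi hxL
  · exfalso
    apply hxL
    have h1 : (x ^ 2) ^ 2 ∈ L := L.pow_mem hi 2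
    have e : (x ^ 2) ^ 2 = x := by
      calc (x ^ 2) ^ 2 = x ^ 3 * x := by group
        _ = x := by rw [hx3, one_mul]
    rwa [e] at h1

theorem pow_two_cases {G : Type u} [Group G] {w : G} (hw : w * w = 1) (e : ℕ) :
    w ^ e = 1 ∨ w ^ e = w := by
  have hw2 : w ^ 2 = 1 := by rw [pow_two]; exact hw
  rw [pow_eq_pow_mod e hw2]
  have hlt : e % 2 < 2 := Nat.mod_lt _ (by norm_num)
  interval_cases h : e % 2
  · left; simp
  · right; simp

theorem pkgEnd : PkgEnd.{u} := by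
  intro hTI hSyl G _ _ H T a b c w w' D L1 L2 L3 hL1n hL2n hL3n hwL1 haL1 hw'L2 hbL2 hww'L3 hcL3
  classical
  have hp3 : Fact (Nat.Prime 3) := ⟨Nat.prime_three⟩
  have ha1 : a ≠ 1 := fun h => haL1 (h ▸ L1.one_mem)
  have hb1 : b ≠ 1 := fun h => hbL2 (h ▸ L2.one_mem)
  have hc1 : c ≠ 1 := fun h => hcL3 (h ▸ L3.one_mem)
  -- memberships
  have hbL1 : b ∈ L1 := mem_of_inverts L1 hL1n hwL1 D.b3 D.wb
  have hcL1 : c ∈ L1 := mem_of_inverts L1 hL1n hwL1 D.c3 D.wc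
  have haL2 : a ∈ L2 := mem_of_inverts L2 hL2n hw'L2 D.a3 D.w'a
  have hcL2 : c ∈ L2 := mem_of_inverts L2 hL2n hw'L2 D.c3 D.w'c
  have hwwa : (w * w') * a * (w * w')⁻¹ = a⁻¹ := by
    have e : (w * w') * a * (w * w')⁻¹ = w * (w' * a * w'⁻¹) * w⁻¹ := by group
    rw [e, D.w'a]
    have e2 : w * a⁻¹ * w⁻¹ = (w * a * w⁻¹)⁻¹ := by group
    rw [e2, D.wa]
  have hwwb : (w * w') * b * (w * w')⁻¹ = b⁻¹ := by
    have e : (w * w') * b * (w * w')⁻¹ = w * (w' * b * w'⁻¹) * w⁻¹ := by group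
    rw [e, D.w'b, D.wb]
  have haL3 : a ∈ L3 := mem_of_inverts L3 hL3n hww'L3 D.a3 hwwa
  have hbL3 : b ∈ L3 := mem_of_inverts L3 hL3n hww'L3 D.b3 hwwb
  -- commutation inside `T`
  have hTa : ∀ t ∈ T, Commute t a := by
    intro t ht
    obtain ⟨i, j, k, rfl⟩ := D.T_eq t ht
    have h1 : Commute (a ^ i) a := (Commute.refl a).pow_left i
    have h2 : Commute (b ^ j) a := (show Commute b a from D.ab.symm).pow_left j
    have h3 : Commute (c ^ k) a := (show Commute c a from D.ac.symm).pow_left k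
    exact (h1.mul_left h2).mul_left h3
  have hTb : ∀ t ∈ T, Commute t b := by
    intro t ht
    obtain ⟨i, j, k, rfl⟩ := D.T_eq t ht
    have h1 : Commute (a ^ i) b := (show Commute a b from D.ab).pow_left i
    have h2 : Commute (b ^ j) b := (Commute.refl b).pow_left j
    have h3 : Commute (c ^ k) b := (show Commute c b from D.bc.symm).pow_left k
    exact (h1.mul_left h2).mul_left h3
  have hTc : ∀ t ∈ T, Commute t c := by
    intro t ht
    obtain ⟨i, j, k, rfl⟩ := D.T_eq t ht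
    have h1 : Commute (a ^ i) c := (show Commute a c from D.ac).pow_left i
    have h2 : Commute (b ^ j) c := (show Commute b c from D.bc).pow_left j
    have h3 : Commute (c ^ k) c := (Commute.refl c).pow_left k
    exact (h1.mul_left h2).mul_left h3
  have hcomm : ∀ x ∈ T, ∀ y ∈ T, x * y = y * x := by
    intro x hx y hy
    obtain ⟨i, j, k, rfl⟩ := D.T_eq y hy
    have h1 : Commute x (a ^ i) := (hTa x hx).pow_right i
    have h2 : Commute x (b ^ j) := (hTb x hx).pow_right j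
    have h3 : Commute x (c ^ k) := (hTc x hx).pow_right k
    exact ((h1.mul_right h2).mul_right h3).eq
  have hexp : ∀ x ∈ T, x ^ 3 = 1 := by
    intro x hx
    obtain ⟨i, j, k, rfl⟩ := D.T_eq x hx
    have h1 : Commute (a ^ i) (b ^ j) := ((show Commute a b from D.ab).pow_left i).pow_right j
    have h2 : Commute (a ^ i * b ^ j) (c ^ k) :=
      (((show Commute a c from D.ac).pow_left i).pow_right k).mul_left
        (((show Commute b c from D.bc).pow_left j).pow_right k)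
    rw [h2.mul_pow, h1.mul_pow, ← pow_mul, ← pow_mul, ← pow_mul, mul_comm i 3, mul_comm j 3,
      mul_comm k 3, pow_mul, pow_mul, pow_mul, D.a3, D.b3, D.c3, one_pow, one_pow, one_pow,
      one_mul, one_mul]
  -- `L1 ⊓ L2 ⊓ L3` meets `T` trivially
  have hDT : ∀ t ∈ T, t ∈ L1 → t ∈ L2 → t ∈ L3 → t = 1 := by
    intro t ht h1 h2 h3
    obtain ⟨i, j, k, rfl⟩ := D.T_eq t ht
    have hai : a ^ i = 1 := by
      apply pow_eq_one_of_mem L1 D.a3 haL1
      have h4 := L1.mul_mem (L1.mul_mem h1 (L1.inv_mem (L1.pow_mem hcL1 k)))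
        (L1.inv_mem (L1.pow_mem hbL1 j))
      have e : a ^ i * b ^ j * c ^ k * (c ^ k)⁻¹ * (b ^ j)⁻¹ = a ^ i := by group
      rwa [e] at h4
    have hbj : b ^ j = 1 := by
      apply pow_eq_one_of_mem L2 D.b3 hbL2
      have h4 := L2.mul_mem (L2.inv_mem (L2.pow_mem haL2 i))
        (L2.mul_mem h2 (L2.inv_mem (L2.pow_mem hcL2 k)))
      have e : (a ^ i)⁻¹ * (a ^ i * b ^ j * c ^ k * (c ^ k)⁻¹) = b ^ j := by group
      rwa [e] at h4
    have hck : c ^ k = 1 := by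
      apply pow_eq_one_of_mem L3 D.c3 hcL3
      have h4 := L3.mul_mem (L3.inv_mem (L3.mul_mem (L3.pow_mem haL3 i) (L3.pow_mem hbL3 j))) h3
      have e : (a ^ i * b ^ j)⁻¹ * (a ^ i * b ^ j * c ^ k) = c ^ k := by group
      rwa [e] at h4
    rw [hai, hbj, hck]; simp
  -- the intersection
  have hDn : (L1 ⊓ L2 ⊓ L3).Normal := inferInstance
  -- `3 ∤ |L1 ⊓ L2 ⊓ L3|`
  have h3' : ¬ 3 ∣ Nat.card (L1 ⊓ L2 ⊓ L3 : Subgroup G) := by
    intro hdvd
    obtain ⟨x, hx⟩ := exists_prime_orderOf_dvd_card' 3 hdvd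
    have hpg : IsPGroup 3 (Subgroup.zpowers (x : G)) := by
      apply IsPGroup.of_card (n := 1)
      rw [Nat.card_zpowers, Subgroup.orderOf_coe, hx, pow_one]
    obtain ⟨g, hg⟩ := hSyl H T a b c w w' D _ hpg
    have hxT : g * (x : G) * g⁻¹ ∈ T := hg _ (Subgroup.mem_zpowers _)
    have hxD : g * (x : G) * g⁻¹ ∈ L1 ⊓ L2 ⊓ L3 := hDn.conj_mem _ x.2 g
    have h2 : g * (x : G) * g⁻¹ = 1 := hDT _ hxT hxD.1.1 hxD.1.2 hxD.2
    have hx1 : (x : G) = 1 := by
      have := congrArg (fun y => g⁻¹ * y * g) h2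
      simpa [mul_assoc] using this
    rw [← Subgroup.orderOf_coe, hx1, orderOf_one] at hx
    norm_num at hx
  -- `(L1 ⊓ L2 ⊓ L3) ∩ H = 1`
  have hDH : ∀ d ∈ L1 ⊓ L2 ⊓ L3, d ∈ H → d = 1 := by
    intro d hdD hdH
    -- `d` centralizes `T`
    have hcen : ∀ s ∈ T, d * s * d⁻¹ = s := by
      intro s hs
      have hsT : d * s * d⁻¹ ∈ T := by
        have hdN : d ∈ Subgroup.normalizer (T : Set G) := by rw [D.hN]; exact hdH
        exact (Subgroup.mem_normalizer_iff.mp hdN s).mp hs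
      have h1 : d * s * d⁻¹ * s⁻¹ ∈ T := T.mul_mem hsT (T.inv_mem hs)
      have h2 : d * s * d⁻¹ * s⁻¹ ∈ L1 ⊓ L2 ⊓ L3 := by
        have h3 := (L1 ⊓ L2 ⊓ L3).mul_mem hdD (hDn.conj_mem _ ((L1 ⊓ L2 ⊓ L3).inv_mem hdD) s)
        have e : d * (s * d⁻¹ * s⁻¹) = d * s * d⁻¹ * s⁻¹ := by group
        rwa [e] at h3
      have h4 := hDT _ h1 h2.1.1 h2.1.2 h2.2
      calc d * s * d⁻¹ = (d * s * d⁻¹ * s⁻¹) * s := by group
        _ = s := by rw [h4, one_mul]
    obtain ⟨t, ht, e, f, hd⟩ := D.H_eq d hdH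
    have hta : t * a⁻¹ * t⁻¹ = a⁻¹ := by
      have h1 := (hTa t ht).inv_right
      calc t * a⁻¹ * t⁻¹ = a⁻¹ * t * t⁻¹ := by rw [h1.eq]
        _ = a⁻¹ := by group
    have htb : t * b⁻¹ * t⁻¹ = b⁻¹ := by
      have h1 := (hTb t ht).inv_right
      calc t * b⁻¹ * t⁻¹ = b⁻¹ * t * t⁻¹ := by rw [h1.eq]
        _ = b⁻¹ := by group
    have hda := hcen a D.haT
    have hdb := hcen b D.hbT
    rcases pow_two_cases D.w2 e with he | he <;> rcases pow_two_cases D.w'2 f with hf | hf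
    · -- d = t
      rw [he, hf, mul_one, mul_one] at hd
      rw [hd] at hdD ⊢
      exact hDT t ht hdD.1.1 hdD.1.2 hdD.2
    · -- d = t * w'
      exfalso
      rw [he, hf, mul_one] at hd
      apply ha1
      apply eq_one_of_inv_eq D.a3
      rw [hd] at hda
      have e1 : t * w' * a * (t * w')⁻¹ = t * (w' * a * w'⁻¹) * t⁻¹ := by group
      rw [e1, D.w'a, hta] at hda
      exact hda
    · -- d = t * w
      exfalso
      rw [he, hf, mul_one] at hd
      apply hb1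
      apply eq_one_of_inv_eq D.b3
      rw [hd] at hdb
      have e1 : t * w * b * (t * w)⁻¹ = t * (w * b * w⁻¹) * t⁻¹ := by group
      rw [e1, D.wb, htb] at hdb
      exact hdb
    · -- d = t * w * w'
      exfalso
      rw [he, hf] at hd
      apply ha1
      apply eq_one_of_inv_eq D.a3
      rw [hd] at hda
      have e1 : t * w * w' * a * (t * w * w')⁻¹ = t * ((w * w') * a * (w * w')⁻¹) * t⁻¹ := by
        group
      rw [e1, hwwa, hta] at hda
      exact hda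
  -- `T` is not cyclic
  have hnc : ¬ IsCyclic T := by
    intro hcyc
    have h1 : Monoid.exponent T = Nat.card T := IsCyclic.exponent_eq_card
    have h2 : Monoid.exponent T ∣ 3 := by
      apply Monoid.exponent_dvd_of_forall_pow_eq_one
      intro x
      exact Subtype.ext (hexp x x.2)
    have h3 := Nat.le_of_dvd (by norm_num) h2
    rw [h1, D.cardT] at h3
    omega
  -- coprime generation
  have hbot : L1 ⊓ L2 ⊓ L3 ≤ ⊥ := by
    apply Cfsg.Agent.Lib.Helper48.coprime_generation_le (p := 3) (L1 ⊓ L2 ⊓ L3) T hcomm hexp hnc h3'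
    · rw [Subgroup.normalizer_eq_top]
      exact le_top
    · intro u hu hu1 x hx
      rw [Subgroup.mem_bot]
      exact hDH x hx.1 (D.hC u hu hu1 hx.2)
  -- the end
  rw [eq_top_iff]
  intro g _
  have hy3 : g * a * g⁻¹ ∈ L3 := hL3n.conj_mem _ haL3 g
  have hcomm2 : (g * a * g⁻¹) * c * (g * a * g⁻¹)⁻¹ * c⁻¹ = 1 := by
    have h1 : (g * a * g⁻¹) * c * (g * a * g⁻¹)⁻¹ * c⁻¹ ∈ L1 :=
      L1.mul_mem (hL1n.conj_mem _ hcL1 _) (L1.inv_mem hcL1)
    have h2 : (g * a * g⁻¹) * c * (g * a * g⁻¹)⁻¹ * c⁻¹ ∈ L2 :=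
      L2.mul_mem (hL2n.conj_mem _ hcL2 _) (L2.inv_mem hcL2)
    have h3 : (g * a * g⁻¹) * c * (g * a * g⁻¹)⁻¹ * c⁻¹ ∈ L3 := by
      have h4 := L3.mul_mem hy3 (hL3n.conj_mem _ (L3.inv_mem hy3) c)
      have e : g * a * g⁻¹ * (c * (g * a * g⁻¹)⁻¹ * c⁻¹) =
          (g * a * g⁻¹) * c * (g * a * g⁻¹)⁻¹ * c⁻¹ := by group
      rwa [e] at h4
    have h5 : (g * a * g⁻¹) * c * (g * a * g⁻¹)⁻¹ * c⁻¹ ∈ (⊥ : Subgroup G) := hbot ⟨⟨h1, h2⟩, h3⟩
    rwa [Subgroup.mem_bot] at h5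
  have hcen : g * a * g⁻¹ ∈ Subgroup.centralizer ({c} : Set G) := by
    rw [Subgroup.mem_centralizer_iff]
    intro h hh
    rw [Set.mem_singleton_iff] at hh
    rw [hh]
    calc c * (g * a * g⁻¹) = ((g * a * g⁻¹) * c * (g * a * g⁻¹)⁻¹ * c⁻¹)⁻¹ * ((g * a * g⁻¹) * c) := by
          group
      _ = (g * a * g⁻¹) * c := by rw [hcomm2, inv_one, one_mul]
  exact hTI H T a b c w w' D g a D.haT ha1 (D.hC c D.hcT hc1 hcen)

end Cfsg.Agent.Lib.Helper66.S3701
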