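import Mathlib
import Cfsg.Agent.Lib.Helper70.S3701.Defs
import Cfsg.Agent.Lib.Helper66.S3701.End

/-!
# S3701, package `PkgNoFuse`

`w'` is not `G`-conjugate to `w`: otherwise `g b g⁻¹ ∈ C_G(w) ∋ a`; the Sylow 3-subgroups of
`C_G(w)` are conjugate, and a 3-subgroup of `C_G(w)` containing `a` lies in `C_T(w) = ⟨a⟩`,
so `b` is `G`-conjugate, hence (TI) `H`-conjugate, to a power of `a`: impossible.
-/

set_option autoImplicit false

namespace Cfsg.Agent.Lib.Helper66.S3701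

open Cfsg.Agent.Lib.Helper70.S3701
open scoped Pointwise

universe u

theorem isPGroup_zpowers_of_cube' {K : Type*} [Group K] (x : K) (h : x ^ 3 = 1) :
    IsPGroup 3 (Subgroup.zpowers x) := by
  rintro ⟨y, hy⟩
  obtain ⟨m, rfl⟩ := Subgroup.mem_zpowers_iff.mp hy
  refine ⟨1, Subtype.ext ?_⟩
  simp only [pow_one, Subgroup.coe_pow, Subgroup.coe_one]
  rw [← zpow_natCast, ← zpow_mul, mul_comm, zpow_mul, zpow_natCast, h, one_zpow]

theorem pkgNoFuse : PkgNoFuse.{u} := by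
  intro hTI hSyl G _ _ H T a b c w w' D g hg
  classical
  have hp3 : Fact (Nat.Prime 3) := ⟨Nat.prime_three⟩
  have ha1 : a ≠ 1 := by
    intro h
    have h1 := D.indep 1 0 0 (by simp [h])
    omega
  have hb1 : b ≠ 1 := by
    intro h
    have h1 := D.indep 0 1 0 (by simp [h])
    omega
  -- commutation inside `T`
  have hTb : ∀ t ∈ T, Commute t b := by
    intro t ht
    obtain ⟨i, j, k, rfl⟩ := D.T_eq t ht
    have h1 : Commute (a ^ i) b := (show Commute a b from D.ab).pow_left i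
    have h2 : Commute (b ^ j) b := (Commute.refl b).pow_left j
    have h3 : Commute (c ^ k) b := (show Commute c b from D.bc.symm).pow_left k
    exact (h1.mul_left h2).mul_left h3
  have hwa : Commute w a := by
    have h1 := D.wa
    show w * a = a * w
    calc w * a = (w * a * w⁻¹) * w := by group
      _ = a * w := by rw [h1]
  have hw'b : Commute w' b := by
    have h1 := D.w'b
    show w' * b = b * w'
    calc w' * b = (w' * b * w'⁻¹) * w' := by group
      _ = b * w' := by rw [h1]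
  -- conjugates of `b` under `H`
  have hHb : ∀ n ∈ H, n * b * n⁻¹ = b ∨ n * b * n⁻¹ = b⁻¹ := by
    intro n hn
    obtain ⟨t, ht, e, f, rfl⟩ := D.H_eq n hn
    have h1 : w' ^ f * b * (w' ^ f)⁻¹ = b := by
      have h2 : Commute (w' ^ f) b := hw'b.pow_left f
      calc w' ^ f * b * (w' ^ f)⁻¹ = b * w' ^ f * (w' ^ f)⁻¹ := by rw [h2.eq]
        _ = b := by group
    have e1 : t * w ^ e * w' ^ f * b * (t * w ^ e * w' ^ f)⁻¹ =
        t * (w ^ e * (w' ^ f * b * (w' ^ f)⁻¹) * (w ^ e)⁻¹) * t⁻¹ := by group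
    rw [e1, h1]
    rcases pow_two_cases D.w2 e with he | he
    · left
      rw [he]
      have h2 := hTb t ht
      calc t * (1 * b * 1⁻¹) * t⁻¹ = t * b * t⁻¹ := by group
        _ = b * t * t⁻¹ := by rw [h2.eq]
        _ = b := by group
    · right
      rw [he, D.wb]
      have h2 := (hTb t ht).inv_right
      calc t * b⁻¹ * t⁻¹ = b⁻¹ * t * t⁻¹ := by rw [h2.eq]
        _ = b⁻¹ := by group
  -- the centralizer of `w`
  let C : Subgroup G := Subgroup.centralizer ({w} : Set G)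
  have haC : a ∈ C := by
    rw [Subgroup.mem_centralizer_iff]
    intro z hz
    rw [Set.mem_singleton_iff] at hz
    rw [hz]
    exact hwa.eq
  have hyC : g * b * g⁻¹ ∈ C := by
    rw [Subgroup.mem_centralizer_iff]
    intro z hz
    rw [Set.mem_singleton_iff] at hz
    rw [hz, ← hg]
    calc g * w' * g⁻¹ * (g * b * g⁻¹) = g * (w' * b) * g⁻¹ := by group
      _ = g * (b * w') * g⁻¹ := by rw [hw'b.eq]
      _ = g * b * g⁻¹ * (g * w' * g⁻¹) := by group
  have ha3 : (⟨a, haC⟩ : C) ^ 3 = 1 := by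
    apply Subtype.ext
    simpa using D.a3
  have hy3 : (⟨g * b * g⁻¹, hyC⟩ : C) ^ 3 = 1 := by
    apply Subtype.ext
    have e : (g * b * g⁻¹) ^ 3 = g * b ^ 3 * g⁻¹ := by
      simp only [pow_succ, pow_zero, one_mul]; group
    simp only [Subgroup.coe_pow, Subgroup.coe_one]
    rw [e, D.b3]; group
  obtain ⟨A', hA'⟩ := (isPGroup_zpowers_of_cube' _ ha3).exists_le_sylow
  obtain ⟨B', hB'⟩ := (isPGroup_zpowers_of_cube' _ hy3).exists_le_sylow
  obtain ⟨k, hk⟩ := MulAction.exists_smul_eq C A' B'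
  have hyB : (⟨g * b * g⁻¹, hyC⟩ : C) ∈ (B' : Subgroup C) := hB' (Subgroup.mem_zpowers _)
  rw [← hk, Sylow.coe_subgroup_smul, Subgroup.mem_pointwise_smul_iff_inv_smul_mem] at hyB
  have hsA : k⁻¹ * (⟨g * b * g⁻¹, hyC⟩ : C) * k ∈ (A' : Subgroup C) := by
    simpa [MulAut.smul_def] using hyB
  -- the image of `A'` in `G`
  have hS3 : IsPGroup 3 ((A' : Subgroup C).map C.subtype) := A'.isPGroup'.map C.subtype
  have haS : a ∈ (A' : Subgroup C).map C.subtype :=
    ⟨⟨a, haC⟩, hA' (Subgroup.mem_zpowers _), rfl⟩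
  have hsS : (k : G)⁻¹ * (g * b * g⁻¹) * (k : G) ∈ (A' : Subgroup C).map C.subtype :=
    ⟨_, hsA, rfl⟩
  have hsC : (k : G)⁻¹ * (g * b * g⁻¹) * (k : G) ∈ C :=
    (k⁻¹ * (⟨g * b * g⁻¹, hyC⟩ : C) * k).2
  set s : G := (k : G)⁻¹ * (g * b * g⁻¹) * (k : G) with hs
  -- `s ∈ T`
  obtain ⟨x, hx⟩ := hSyl H T a b c w w' D _ hS3
  have hxH : x ∈ H := hTI H T a b c w w' D x a D.haT ha1 (D.hTH (hx a haS))
  have hsT : s ∈ T := by
    have h1 := hx s hsS
    have hxN : x⁻¹ ∈ Subgroup.normalizer (T : Set G) := by rw [D.hN]; exact H.inv_mem hxH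
    have h2 := (Subgroup.mem_normalizer_iff.mp hxN _).mp h1
    have e : x⁻¹ * (x * s * x⁻¹) * x⁻¹⁻¹ = s := by group
    rwa [e] at h2
  -- `s` is a power of `a`
  obtain ⟨i, j, l, hijl⟩ := D.T_eq s hsT
  have hws : w * s * w⁻¹ = s := by
    have h1 := (Subgroup.mem_centralizer_iff.mp hsC) w (Set.mem_singleton _)
    calc w * s * w⁻¹ = s * w * w⁻¹ := by rw [h1]
      _ = s := by group
  have hconj : w * s * w⁻¹ = a ^ i * (b⁻¹) ^ j * (c⁻¹) ^ l := by
    have h1 : w * s * w⁻¹ = MulAut.conj w s := by simp [MulAut.conj_apply]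
    rw [h1, hijl, map_mul, map_mul, map_pow, map_pow, map_pow]
    simp only [MulAut.conj_apply]
    rw [D.wa, D.wb, D.wc]
  have hbc : b ^ j * b ^ j * c ^ l * c ^ l = 1 := by
    have h1 : a ^ i * b ^ j * c ^ l = a ^ i * (b⁻¹) ^ j * (c⁻¹) ^ l := by
      rw [← hijl, ← hconj, hws]
    have h2 : b ^ j * c ^ l = (b⁻¹) ^ j * (c⁻¹) ^ l := by
      have h3 := congrArg (fun z => (a ^ i)⁻¹ * z) h1
      simpa [mul_assoc] using h3
    calc b ^ j * b ^ j * c ^ l * c ^ l = b ^ j * (b ^ j * c ^ l) * c ^ l := by group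
      _ = b ^ j * ((b⁻¹) ^ j * (c⁻¹) ^ l) * c ^ l := by rw [h2]
      _ = 1 := by rw [inv_pow, inv_pow]; group
  have hdiv := D.indep 0 (j + j) (l + l) (by
    rw [pow_zero, one_mul, pow_add, pow_add, ← mul_assoc]
    exact hbc)
  have hj : 3 ∣ j := by omega
  have hl : 3 ∣ l := by omega
  have hbj : b ^ j = 1 := by
    obtain ⟨q, rfl⟩ := hj
    rw [pow_mul, D.b3, one_pow]
  have hcl : c ^ l = 1 := by
    obtain ⟨q, rfl⟩ := hl
    rw [pow_mul, D.c3, one_pow]
  have hsa : s = a ^ i := by rw [hijl, hbj, hcl, mul_one, mul_one]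
  -- `n := k⁻¹ g ∈ H`
  have hconj2 : ((k : G)⁻¹ * g) * b * ((k : G)⁻¹ * g)⁻¹ = s := by
    rw [hs]; group
  have hnH : (k : G)⁻¹ * g ∈ H :=
    hTI H T a b c w w' D _ b D.hbT hb1 (by rw [hconj2]; exact D.hTH hsT)
  rcases hHb _ hnH with h1 | h1
  · -- `a ^ i = b`
    rw [hconj2, hsa] at h1
    have h2 := D.indep i 2 0 (by
      rw [h1, pow_zero, mul_one, ← pow_succ']
      exact D.b3)
    omega
  · -- `a ^ i = b⁻¹`
    rw [hconj2, hsa] at h1
    have h2 := D.indep i 1 0 (by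
      rw [h1, pow_zero, mul_one, pow_one, inv_mul_cancel])
    omega

end Cfsg.Agent.Lib.Helper66.S3701
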